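import Mathlib
import Cfsg.Agent.Lib.Linalg.ElemAbelian

/-!
# Weights of an elementary abelian `2`-subgroup of `GL`

An elementary abelian subgroup `E` of `GL_n(F)`, `F` of odd characteristic, has a common eigenbasis.
Two basis vectors are equivalent if they have the same weight, and `|E| ≤ 2 ^ #(classes)`.
If at most one class is a singleton, `|E| ≤ 2 ^ ((n + 1) / 2)`.
-/

set_option autoImplicit false
set_option linter.unusedSectionVars false

namespace Cfsg.Agent.Lib.NRank.Weight

open Matrix Module
open scoped MatrixGroups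

universe u

variable {ι : Type} [Fintype ι] [DecidableEq ι] {F : Type u} [Field F]

/-- The action of `GL` on column vectors. -/
abbrev act (g : GL ι F) (v : ι → F) : ι → F := (g : Matrix ι ι F).mulVec v

theorem act_mul (g h : GL ι F) (v : ι → F) : act (g * h) v = act g (act h v) := by
  simp [act, Matrix.mulVec_mulVec]

theorem act_one (v : ι → F) : act (1 : GL ι F) v = v := by
  simp [act]

theorem act_inv_act (g : GL ι F) (v : ι → F) : act g⁻¹ (act g v) = v := by
  rw [← act_mul, inv_mul_cancel, act_one]

theorem act_act_inv (g : GL ι F) (v : ι → F) : act g (act g⁻¹ v) = v := by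
  rw [← act_mul, mul_inv_cancel, act_one]

theorem act_neg (g : GL ι F) (v : ι → F) : act g (-v) = - act g v := Matrix.mulVec_neg _ _

theorem act_add (g : GL ι F) (v w : ι → F) : act g (v + w) = act g v + act g w := Matrix.mulVec_add _ _ _

theorem act_smul (g : GL ι F) (a : F) (v : ι → F) : act g (a • v) = a • act g v :=
  Matrix.mulVec_smul _ _ _

theorem act_injective (g h : GL ι F) (H : ∀ v, act g v = act h v) : g = h := by
  apply Units.ext
  exact Matrix.mulVec_injective (funext H)

/-- A weight vector of `E`: every element of `E` acts by a sign. -/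
def IsWt (E : Subgroup (GL ι F)) (v : ι → F) : Prop := ∀ e ∈ E, act e v = v ∨ act e v = -v

/-- `v` spans a weight space of dimension one, witnessed by a functional. -/
def IsSing (E : Subgroup (GL ι F)) (v : ι → F) : Prop :=
  ∃ l : (ι → F) →ₗ[F] F, l v = 1 ∧ IsWt E v ∧ ∀ w, IsWt E w → l w ≠ 0 → ∃ a : F, w = a • v

/-- Weight vectors are moved to weight vectors by the normalizer. -/
theorem IsWt.act {E : Subgroup (GL ι F)} {v : ι → F} (hv : IsWt E v) {g : GL ι F}
    (hg : ∀ e ∈ E, g⁻¹ * e * g ∈ E) : IsWt E (act g v) := by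
  intro e he
  have h1 : Weight.act e (Weight.act g v) = Weight.act g (Weight.act (g⁻¹ * e * g) v) := by
    rw [← act_mul, ← act_mul]
    congr 1
    group
  rw [h1]
  rcases hv _ (hg e he) with h | h
  · left
    rw [h]
  · right
    rw [h, act_neg]

variable [Finite F]

theorem exists_basis (h2 : (2 : F) ≠ 0) (E : Subgroup (GL ι F)) (hc : IsMulCommutative E)
    (hE : ∀ a ∈ E, a ^ 2 = 1) :
    ∃ (J : Type u) (_ : Fintype J) (b : Basis J F (ι → F)), ∀ e ∈ E, ∀ j, Weight.act e (b j) = b j ∨
      Weight.act e (b j) = -b j := by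
  classical
  let _ := Fintype.ofFinite F
  let f : GL ι F → Module.End F (ι → F) := fun a => Matrix.toLin' (a : Matrix ι ι F)
  have hfmul : ∀ a b : GL ι F, f (a * b) = f a * f b := by
    intro a b
    simp only [f, Units.val_mul, Matrix.toLin'_mul, Module.End.mul_eq_comp]
  have hfone : f 1 = 1 := by
    simp only [f, Units.val_one, Matrix.toLin'_one, Module.End.one_eq_id]
  let S : Finset (Module.End F (ι → F)) :=
    ((Set.toFinite (E : Set (GL ι F))).image f).toFinset
  have hS : ∀ x ∈ S, ∃ a ∈ E, f a = x := by
    intro x hx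
    simpa [S] using hx
  have hSc : ∀ x ∈ S, ∀ y ∈ S, x * y = y * x := by
    intro x hx y hy
    obtain ⟨a, ha, rfl⟩ := hS x hx
    obtain ⟨b, hb, rfl⟩ := hS y hy
    rw [← hfmul, ← hfmul]
    have := hc.is_comm.comm ⟨a, ha⟩ ⟨b, hb⟩
    have h3 : a * b = b * a := congrArg Subtype.val this
    rw [h3]
  have hS1 : ∀ x ∈ S, x * x = 1 := by
    intro x hx
    obtain ⟨a, ha, rfl⟩ := hS x hx
    rw [← hfmul, ← pow_two, hE a ha, hfone]
  obtain ⟨J, hJ, b, hb⟩ := Cfsg.Agent.Lib.Linalg.ElemAbelian.exists_eigenbasis h2 S hSc hS1
  refine ⟨J, hJ, b, fun e he j => ?_⟩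
  have hmem : f e ∈ S := by
    simp only [S, Set.Finite.mem_toFinset, Set.mem_image]
    exact ⟨e, he, rfl⟩
  have := hb _ hmem j
  simpa [f, Matrix.toLin'_apply] using this

section Basis

variable {J : Type u} [Fintype J] (b : Basis J F (ι → F)) (E : Subgroup (GL ι F))

theorem repr_act (hb : ∀ e ∈ E, ∀ j, Weight.act e (b j) = b j ∨ Weight.act e (b j) = -b j)
    {e : GL ι F} (he : e ∈ E) (w : ι → F) (j : J) :
    (b.repr (Weight.act e w) j = b.repr w j ∧ Weight.act e (b j) = b j) ∨
      (b.repr (Weight.act e w) j = - b.repr w j ∧ Weight.act e (b j) = - b j) := by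
  classical
  have key : ∀ s : J → F, (∀ k, Weight.act e (b k) = s k • b k) →
      b.repr (Weight.act e w) j = s j * b.repr w j := by
    intro s hs
    have h1 : Weight.act e w = ∑ k, (b.repr w k * s k) • b k := by
      conv_lhs => rw [← b.sum_repr w]
      have : ∀ (A : Finset J) (c : J → F), Weight.act e (∑ k ∈ A, c k • b k) = ∑ k ∈ A, (c k * s k) • b k := by
        intro A c
        induction A using Finset.induction_on with
        | empty =>
          simp [Weight.act]
        | insert k A hk ih =>
          rw [Finset.sum_insert hk, Finset.sum_insert hk, act_add, ih, act_smul, hs, smul_smul]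
      exact this _ _
    rw [h1, b.repr_sum_self]
    ring
  let s : J → F := fun k => if Weight.act e (b k) = b k then 1 else -1
  have hs : ∀ k, Weight.act e (b k) = s k • b k := by
    intro k
    by_cases h : Weight.act e (b k) = b k
    · simp [s, h]
    · simp only [s, if_neg h]
      rcases hb e he k with h' | h'
      · exact absurd h' h
      · rw [h']
        simp
  have h3 := key s hs
  by_cases h : Weight.act e (b j) = b j
  · left
    refine ⟨?_, h⟩
    rw [h3]
    simp [s, h]
  · right
    rcases hb e he j with h' | h'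
    · exact absurd h' h
    · refine ⟨?_, h'⟩
      rw [h3]
      simp [s, h]

/-- Two indices are equivalent if the basis vectors have the same weight. -/
def wtSetoid : Setoid J where
  r j k := ∀ e ∈ E, (Weight.act e (b j) = b j ↔ Weight.act e (b k) = b k)
  iseqv := ⟨fun _ _ _ => Iff.rfl, fun h e he => (h e he).symm, fun h h' e he => (h e he).trans (h' e he)⟩

theorem ne_neg_self (h2 : (2 : F) ≠ 0) {v : ι → F} (hv : v ≠ 0) : v ≠ -v := by
  intro h
  apply hv
  have h3 : (2 : F) • v = 0 := by
    rw [two_smul]
    nth_rewrite 2 [h]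
    simp
  exact (smul_eq_zero.1 h3).resolve_left h2

/-- The size of `E` is at most `2 ^ #(classes)`. -/
theorem card_le_classes (h2 : (2 : F) ≠ 0)
    (hb : ∀ e ∈ E, ∀ j, Weight.act e (b j) = b j ∨ Weight.act e (b j) = -b j)
    (Q : Type u) [Fintype Q] (p : J → Q)
    (hp : ∀ j k, p j = p k → ∀ e ∈ E, (Weight.act e (b j) = b j ↔ Weight.act e (b k) = b k)) :
    Nat.card E ≤ 2 ^ Fintype.card Q := by
  classical
  have : Finite (GL ι F) := by
    let _ := Fintype.ofFinite F
    exact inferInstance
  let φ : E → (Set.range p → Bool) := fun e x => decide (Weight.act e.1 (b x.2.choose) = b x.2.choose)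
  have hφ : Function.Injective φ := by
    intro e e' h
    apply Subtype.ext
    apply act_injective
    intro v
    have hbasis : ∀ j, Weight.act e.1 (b j) = Weight.act e'.1 (b j) := by
      intro j
      let x : Set.range p := ⟨p j, j, rfl⟩
      have h1 := congrFun h x
      have h2' : p x.2.choose = p j := x.2.choose_spec
      have h3 := hp _ _ h2' e.1 e.2
      have h4 := hp _ _ h2' e'.1 e'.2
      have h5 : (Weight.act e.1 (b x.2.choose) = b x.2.choose) ↔
          (Weight.act e'.1 (b x.2.choose) = b x.2.choose) := by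
        simpa [φ] using h1
      have h6 := (h3.symm.trans h5).trans h4
      rcases hb e.1 e.2 j with h7 | h7
      · rw [h7, h6.1 h7]
      · by_cases h8 : Weight.act e'.1 (b j) = b j
        · exfalso
          have h9 := h6.2 h8
          rw [h7] at h9
          exact ne_neg_self h2 (b.ne_zero j) h9.symm
        · rcases hb e'.1 e'.2 j with h9 | h9
          · exact absurd h9 h8
          · rw [h7, h9]
    have h1 := b.sum_repr v
    rw [← h1]
    have : ∀ (A : Finset J) (c : J → F), Weight.act e.1 (∑ k ∈ A, c k • b k) =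
        Weight.act e'.1 (∑ k ∈ A, c k • b k) := by
      intro A c
      induction A using Finset.induction_on with
      | empty => simp [Weight.act]
      | insert k A hk ih =>
        rw [Finset.sum_insert hk, act_add, act_add, ih, act_smul, act_smul, hbasis]
    exact this _ _
  have h1 := Nat.card_le_card_of_injective φ hφ
  have h2' : Nat.card (Set.range p → Bool) ≤ 2 ^ Fintype.card Q := by
    rw [Nat.card_fun]
    simp only [Nat.card_eq_fintype_card, Fintype.card_bool]
    apply Nat.pow_le_pow_right (by norm_num)
    exact Fintype.card_subtype_le _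
  exact h1.trans h2'

theorem sign_of_repr (h2 : (2 : F) ≠ 0)
    (hb : ∀ e ∈ E, ∀ j, Weight.act e (b j) = b j ∨ Weight.act e (b j) = -b j)
    {e : GL ι F} (he : e ∈ E) {w : ι → F} {j : J} (hw : b.repr w j ≠ 0) :
    (Weight.act e w = w → Weight.act e (b j) = b j) ∧ (Weight.act e w = -w → Weight.act e (b j) = -b j) := by
  have hne : b.repr w j ≠ - b.repr w j := by
    intro h
    apply hw
    have h3 : (2 : F) * b.repr w j = 0 := by linear_combination h
    exact (mul_eq_zero.1 h3).resolve_left h2
  constructor
  · intro h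
    rcases repr_act b E hb he w j with ⟨_, h4⟩ | ⟨h3, _⟩
    · exact h4
    · rw [h] at h3
      exact absurd h3 hne
  · intro h
    rcases repr_act b E hb he w j with ⟨h3, _⟩ | ⟨_, h4⟩
    · rw [h] at h3
      simp only [map_neg, Finsupp.coe_neg, Pi.neg_apply] at h3
      exact absurd h3.symm hne
    · exact h4

/-- A singleton class gives a weight space of dimension one. -/
theorem isSing_of_singleton (h2 : (2 : F) ≠ 0)
    (hb : ∀ e ∈ E, ∀ j, Weight.act e (b j) = b j ∨ Weight.act e (b j) = -b j) (j : J)
    (hj : ∀ k, (∀ e ∈ E, (Weight.act e (b j) = b j ↔ Weight.act e (b k) = b k)) → k = j) :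
    IsSing E (b j) := by
  classical
  refine ⟨b.coord j, by simp, fun e he => hb e he j, ?_⟩
  intro w hw hlw
  have hlw' : b.repr w j ≠ 0 := by simpa using hlw
  refine ⟨b.repr w j, ?_⟩
  have hk : ∀ k, k ≠ j → b.repr w k = 0 := by
    intro k hkj
    by_contra hne
    apply hkj
    apply hj
    intro e he
    have h3 := sign_of_repr b E h2 hb he hlw'
    have h4 := sign_of_repr b E h2 hb he hne
    rcases hw e he with h5 | h5
    · exact ⟨fun _ => h4.1 h5, fun _ => h3.1 h5⟩
    · constructor
      · intro h6
        exfalso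
        have h7 := h3.2 h5
        rw [h6] at h7
        exact ne_neg_self h2 (b.ne_zero j) h7
      · intro h6
        exfalso
        have h7 := h4.2 h5
        rw [h6] at h7
        exact ne_neg_self h2 (b.ne_zero k) h7
  conv_lhs => rw [← b.sum_repr w]
  rw [Finset.sum_eq_single j]
  · intro k _ hkj
    rw [hk k hkj, zero_smul]
  · intro h
    exact absurd (Finset.mem_univ j) h

end Basis

theorem card_basis {J : Type u} [Fintype J] (b : Basis J F (ι → F)) :
    Fintype.card J = Fintype.card ι := by
  rw [← Module.finrank_eq_card_basis b, Module.finrank_fintype_fun_eq_card]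

/-- The bound `|E| ≤ 2 ^ n`. -/
theorem card_le_pow (h2 : (2 : F) ≠ 0) (E : Subgroup (GL ι F)) (hc : IsMulCommutative E)
    (hE : ∀ a ∈ E, a ^ 2 = 1) : Nat.card E ≤ 2 ^ Fintype.card ι := by
  classical
  obtain ⟨J, _, b, hb⟩ := exists_basis h2 E hc hE
  have h := card_le_classes b E h2 hb J id (by
    intro j k hjk e _
    rw [show j = k from hjk])
  rwa [card_basis b] at h

/-- If two weight spaces of dimension one coincide, then `|E| ≤ 2 ^ ((n + 1) / 2)`. -/
theorem card_le_of_sing (h2 : (2 : F) ≠ 0) (E : Subgroup (GL ι F)) (hc : IsMulCommutative E)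
    (hE : ∀ a ∈ E, a ^ 2 = 1) (hs : ∀ v w, IsSing E v → IsSing E w → ∃ a : F, w = a • v) :
    Nat.card E ≤ 2 ^ ((Fintype.card ι + 1) / 2) := by
  classical
  obtain ⟨J, _, b, hb⟩ := exists_basis h2 E hc hE
  let r := wtSetoid b E
  let Q := Quotient r
  let p : J → Q := Quotient.mk r
  have hp : Function.Surjective p := Quotient.mk_surjective
  let _ : Fintype Q := Fintype.ofFinite Q
  have h1 := card_le_classes b E h2 hb Q p (by
    intro j k hjk
    exact Quotient.exact hjk)
  refine h1.trans (Nat.pow_le_pow_right (by norm_num) ?_)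
  -- the fibres
  let fib : Q → Finset J := fun x => Finset.univ.filter (fun j => p j = x)
  have hsum : Fintype.card J = ∑ x : Q, (fib x).card := by
    rw [← Finset.card_univ]
    exact Finset.card_eq_sum_card_fiberwise (fun _ _ => Finset.mem_coe.2 (Finset.mem_univ _))
  have hsing : ∀ x, (fib x).card < 2 → ∃ j, p j = x ∧ IsSing E (b j) := by
    intro x hx
    obtain ⟨j, rfl⟩ := hp x
    refine ⟨j, rfl, isSing_of_singleton b E h2 hb j ?_⟩
    intro k hk
    have h3 : p k = p j := Quotient.sound (s := r) (fun e he => (hk e he).symm)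
    have hle := Finset.card_le_one.1 (Nat.lt_succ_iff.1 hx)
    exact hle k (by simp [fib, h3]) j (by simp [fib])
  have hpos : ∀ x, 1 ≤ (fib x).card := by
    intro x
    obtain ⟨j, rfl⟩ := hp x
    exact Finset.card_pos.2 ⟨j, by simp [fib]⟩
  have hbound : 2 * Fintype.card Q ≤ Fintype.card J + 1 := by
    by_cases hx : ∃ x₀, (fib x₀).card < 2
    · obtain ⟨x₀, hx₀⟩ := hx
      obtain ⟨j₀, hj₀, hj₀s⟩ := hsing x₀ hx₀
      have hge : ∀ x, 2 ≤ (fib x).card + if x = x₀ then 1 else 0 := by
        intro x
        by_cases hxx : x = x₀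
        · subst hxx
          have := hpos x
          simp only [if_true]
          omega
        · simp only [if_neg hxx, add_zero]
          by_contra hlt
          obtain ⟨j, hj, hjs⟩ := hsing x (by omega)
          obtain ⟨a, ha⟩ := hs _ _ hj₀s hjs
          have hjj : j = j₀ := by
            by_contra hne
            have h3 := congrArg (fun u => b.repr u j) ha
            simp [Finsupp.single_apply, Ne.symm hne] at h3
          apply hxx
          rw [← hj, ← hj₀, hjj]
      calc 2 * Fintype.card Q = ∑ _x : Q, 2 := by simp [mul_comm]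
        _ ≤ ∑ x : Q, ((fib x).card + if x = x₀ then 1 else 0) := Finset.sum_le_sum fun x _ => hge x
        _ = Fintype.card J + 1 := by
          rw [Finset.sum_add_distrib, ← hsum]
          congr 1
          rw [Finset.sum_ite_eq' Finset.univ x₀ (fun _ => 1)]
          simp
    · push Not at hx
      calc 2 * Fintype.card Q = ∑ _x : Q, 2 := by simp [mul_comm]
        _ ≤ ∑ x : Q, (fib x).card := Finset.sum_le_sum fun x _ => hx x
        _ ≤ Fintype.card J + 1 := by
          rw [← hsum]
          omega
  rw [card_basis b] at hbound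
  omega

end Cfsg.Agent.Lib.NRank.Weight
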