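import Mathlib
import Cfsg.Agent.Lib.OrthSyl.Core
import Cfsg.Agent.Lib.NRank.Weight

/-!
# The wreath subgroup `(GL(κ, F) ≀ S_m) × {± 1}^L` of `GL((κ × m) ⊕ L, F)`
-/

set_option autoImplicit false
set_option linter.unusedSectionVars false

namespace Cfsg.Agent.Lib.NRank.Block

open Matrix Equiv Cfsg.Agent.Lib.OrthSyl.Core Cfsg.Agent.Lib.Linalg.ElemAbelian
open Cfsg.Agent.Lib.NRank.Weight
open scoped MatrixGroups

universe u

variable {F : Type u} [Field F] {κ L : Type} [Fintype κ] [DecidableEq κ] [Fintype L] [DecidableEq L]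
  {m : ℕ}

/-- The block diagonal homomorphism. -/
def bHom (κ : Type) [Fintype κ] [DecidableEq κ] (m : ℕ) (F : Type u) [Field F] :
    (Fin m → GL κ F) →* GL (κ × Fin m) F where
  toFun f := ⟨blockDiagonal fun i => (f i : Matrix κ κ F),
    blockDiagonal fun i => (((f i)⁻¹ : GL κ F) : Matrix κ κ F), by
      rw [← blockDiagonal_mul, ← blockDiagonal_one]
      congr 1
      funext i
      change ((f i * (f i)⁻¹ : GL κ F) : Matrix κ κ F) = 1
      rw [mul_inv_cancel]
      rfl, by
      rw [← blockDiagonal_mul, ← blockDiagonal_one]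
      congr 1
      funext i
      change (((f i)⁻¹ * f i : GL κ F) : Matrix κ κ F) = 1
      rw [inv_mul_cancel]
      rfl⟩
  map_one' := by
    apply Units.ext
    change blockDiagonal (fun _ => (1 : Matrix κ κ F)) = 1
    exact blockDiagonal_one
  map_mul' a b := by
    apply Units.ext
    change blockDiagonal (fun i => ((a i * b i : GL κ F) : Matrix κ κ F)) =
      blockDiagonal (fun i => (a i : Matrix κ κ F)) *
        blockDiagonal (fun i => (b i : Matrix κ κ F))
    rw [← blockDiagonal_mul]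
    rfl

theorem bHom_coe (f : Fin m → GL κ F) :
    ((bHom κ m F f : GL (κ × Fin m) F) : Matrix (κ × Fin m) (κ × Fin m) F) =
      blockDiagonal fun i => (f i : Matrix κ κ F) := rfl

/-- The permutation of the index set. -/
def permS (σ : Perm (Fin m)) : Perm (κ × Fin m) := prodCongrRight fun _ => σ⁻¹

theorem permS_apply (σ : Perm (Fin m)) (x : κ × Fin m) : permS σ x = (x.1, σ⁻¹ x.2) := rfl

theorem permS_mul (σ τ : Perm (Fin m)) : permS (σ * τ) = (permS τ * permS σ : Perm (κ × Fin m)) := by
  ext x <;> simp [permS_apply, Perm.mul_apply]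

theorem permS_one : permS (1 : Perm (Fin m)) = (1 : Perm (κ × Fin m)) := by
  ext x <;> simp [permS_apply]

/-- The permutation homomorphism. -/
def pHom (κ : Type) [Fintype κ] [DecidableEq κ] (m : ℕ) (F : Type u) [Field F] :
    Perm (Fin m) →* GL (κ × Fin m) F where
  toFun σ := ⟨(permS σ).permMatrix F, (permS σ⁻¹).permMatrix F, by
      rw [← Matrix.permMatrix_mul, ← permS_mul, mul_inv_cancel, permS_one, Matrix.permMatrix_one], by
      rw [← Matrix.permMatrix_mul, ← permS_mul, inv_mul_cancel, permS_one, Matrix.permMatrix_one]⟩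
  map_one' := by
    apply Units.ext
    change (permS (1 : Perm (Fin m))).permMatrix F = 1
    rw [permS_one, Matrix.permMatrix_one]
  map_mul' a b := by
    apply Units.ext
    change (permS (a * b)).permMatrix F = (permS a).permMatrix F * (permS b).permMatrix F
    rw [permS_mul, Matrix.permMatrix_mul]

theorem pHom_coe (σ : Perm (Fin m)) :
    ((pHom κ m F σ : GL (κ × Fin m) F) : Matrix (κ × Fin m) (κ × Fin m) F) =
      (permS σ).permMatrix F := rfl

theorem mul_entry (f : Fin m → GL κ F) (σ : Perm (Fin m)) (x y : κ × Fin m) :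
    ((bHom κ m F f * pHom κ m F σ : GL (κ × Fin m) F) : Matrix (κ × Fin m) (κ × Fin m) F) x y =
      if x.2 = σ y.2 then (f x.2 : Matrix κ κ F) x.1 y.1 else 0 := by
  rw [Units.val_mul, bHom_coe, pHom_coe, Equiv.Perm.permMatrix, PEquiv.mul_toMatrix_toPEquiv,
    submatrix_apply, blockDiagonal_apply]
  rfl

theorem isWreath_bHom (f : Fin m → GL κ F) (σ : Perm (Fin m)) :
    pHom κ m F σ * bHom κ m F f = bHom κ m F (fun i => f (σ⁻¹ i)) * pHom κ m F σ := by
  apply Units.ext
  ext x y
  rw [mul_entry, Units.val_mul, bHom_coe, pHom_coe, Equiv.Perm.permMatrix, PEquiv.toMatrix_toPEquiv_mul,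
    submatrix_apply, blockDiagonal_apply]
  change (if σ⁻¹ x.2 = y.2 then (f (σ⁻¹ x.2) : Matrix κ κ F) x.1 y.1 else 0) =
    if x.2 = σ y.2 then (f (σ⁻¹ x.2) : Matrix κ κ F) x.1 y.1 else 0
  have hiff : σ⁻¹ x.2 = y.2 ↔ x.2 = σ y.2 := Perm.inv_eq_iff_eq
  by_cases h : σ⁻¹ x.2 = y.2
  · rw [if_pos (hiff.1 h), if_pos h]
  · rw [if_neg (fun h' => h (hiff.2 h')), if_neg h]

theorem bHom_mul_pHom_injective [Nonempty κ] (D : Subgroup (GL κ F)) (T : Subgroup (Perm (Fin m)))
    (f f' : Fin m → D) (t t' : T)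
    (h1 : bHom κ m F (fun i => ((f i : D) : GL κ F)) * pHom κ m F (t : Perm (Fin m)) =
      bHom κ m F (fun i => ((f' i : D) : GL κ F)) * pHom κ m F (t' : Perm (Fin m))) :
    f = f' ∧ t = t' := by
  have h2 : ∀ x y : κ × Fin m, (if x.2 = (t : Perm (Fin m)) y.2 then
        (((f x.2 : D) : GL κ F) : Matrix κ κ F) x.1 y.1 else 0) =
      (if x.2 = (t' : Perm (Fin m)) y.2 then
        (((f' x.2 : D) : GL κ F) : Matrix κ κ F) x.1 y.1 else 0) := by
    intro x y
    rw [← mul_entry (fun i => ((f i : D) : GL κ F)), ← mul_entry (fun i => ((f' i : D) : GL κ F)), h1]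
  have hne : ∀ g : GL κ F, ∃ a b : κ, (g : Matrix κ κ F) a b ≠ 0 := by
    intro g
    by_contra hcon
    push Not at hcon
    have h3 : (g : Matrix κ κ F) = 0 := by
      ext a b
      exact hcon a b
    exact g.ne_zero h3
  have ht : t = t' := by
    apply Subtype.ext
    ext j
    obtain ⟨a, b, hab⟩ := hne ((f ((t : Perm (Fin m)) j) : D) : GL κ F)
    have h3 := h2 (a, (t : Perm (Fin m)) j) (b, j)
    simp only [if_true] at h3
    by_contra hcon
    rw [if_neg (fun h' => hcon (by rw [h']))] at h3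
    exact hab h3
  subst ht
  refine ⟨?_, rfl⟩
  funext i
  apply Subtype.ext
  apply Units.ext
  ext a b
  have h3 := h2 (a, i) (b, (t : Perm (Fin m))⁻¹ i)
  simpa using h3

/-- Block sum. -/
def sumHom (A B : Type) [Fintype A] [DecidableEq A] [Fintype B] [DecidableEq B] (F : Type u) [Field F] :
    GL A F × GL B F →* GL (A ⊕ B) F where
  toFun g := ⟨fromBlocks (g.1 : Matrix A A F) 0 0 (g.2 : Matrix B B F),
    fromBlocks ((g.1⁻¹ : GL A F) : Matrix A A F) 0 0 ((g.2⁻¹ : GL B F) : Matrix B B F), by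
      rw [fromBlocks_multiply, ← fromBlocks_one]
      simp, by
      rw [fromBlocks_multiply, ← fromBlocks_one]
      simp⟩
  map_one' := by
    apply Units.ext
    change fromBlocks _ _ _ _ = 1
    rw [← fromBlocks_one]
    simp
  map_mul' a b := by
    apply Units.ext
    change fromBlocks _ _ _ _ = fromBlocks _ _ _ _ * fromBlocks _ _ _ _
    rw [fromBlocks_multiply]
    simp

theorem sumHom_coe {A B : Type} [Fintype A] [DecidableEq A] [Fintype B] [DecidableEq B]
    (g : GL A F × GL B F) :
    ((sumHom A B F g : GL (A ⊕ B) F) : Matrix (A ⊕ B) (A ⊕ B) F) =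
      fromBlocks (g.1 : Matrix A A F) 0 0 (g.2 : Matrix B B F) := rfl

theorem sumHom_injective {A B : Type} [Fintype A] [DecidableEq A] [Fintype B] [DecidableEq B] :
    Function.Injective (sumHom A B F) := by
  intro a b h
  have h1 := congrArg (fun g : GL (A ⊕ B) F => (g : Matrix (A ⊕ B) (A ⊕ B) F)) h
  simp only [sumHom_coe] at h1
  have h2 := fromBlocks_inj.1 h1
  exact Prod.ext (Units.ext h2.1) (Units.ext h2.2.2.2)

/-- Signs as diagonal matrices. -/
noncomputable def signHom (L : Type) [Fintype L] [DecidableEq L] (F : Type u) [Field F] :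
    (L → ℤˣ) →* GL L F where
  toFun t := ⟨diagonal (fun i => signVal F (t i)), diagonal (fun i => signVal F (t i)), by
      rw [diagonal_mul_diagonal, ← diagonal_one]
      congr 1
      funext i
      rw [← map_mul, ← pow_two, Int.units_sq, map_one], by
      rw [diagonal_mul_diagonal, ← diagonal_one]
      congr 1
      funext i
      rw [← map_mul, ← pow_two, Int.units_sq, map_one]⟩
  map_one' := by
    apply Units.ext
    change diagonal _ = 1
    rw [← diagonal_one]
    congr 1
    funext i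
    exact map_one _
  map_mul' a b := by
    apply Units.ext
    change diagonal _ = diagonal _ * diagonal _
    rw [diagonal_mul_diagonal]
    congr 1
    funext i
    exact map_mul _ _ _

theorem signHom_injective (h2 : (2 : F) ≠ 0) : Function.Injective (signHom L F) := by
  intro a b h
  funext i
  have h1 := congrArg (fun g : GL L F => (g : Matrix L L F) i i) h
  change diagonal (fun i => signVal F (a i)) i i = diagonal (fun i => signVal F (b i)) i i at h1
  rw [diagonal_apply_eq, diagonal_apply_eq] at h1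
  exact signVal_inj h2 h1

/-- The index type. -/
abbrev Idx (κ L : Type) (m : ℕ) : Type := (κ × Fin m) ⊕ L

/-- The base group. -/
noncomputable def cOf (D : Subgroup (GL κ F)) : (Fin m → D) × (L → ℤˣ) →* GL (Idx κ L m) F :=
  (sumHom (κ × Fin m) L F).comp
    (((bHom κ m F).comp (MonoidHom.compLeft D.subtype (Fin m))).prodMap (signHom L F))

theorem cOf_apply (D : Subgroup (GL κ F)) (n : (Fin m → D) × (L → ℤˣ)) :
    cOf D n = sumHom (κ × Fin m) L F
      (bHom κ m F (fun i => ((n.1 i : D) : GL κ F)), signHom L F n.2) := rfl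

/-- The permutations. -/
noncomputable def pOf (κ L : Type) [Fintype κ] [DecidableEq κ] [Fintype L] [DecidableEq L] (m : ℕ)
    (F : Type u) [Field F] : Perm (Fin m) →* GL (Idx κ L m) F :=
  (sumHom (κ × Fin m) L F).comp ((MonoidHom.inl _ _).comp (pHom κ m F))

theorem pOf_apply (σ : Perm (Fin m)) :
    pOf κ L m F σ = sumHom (κ × Fin m) L F (pHom κ m F σ, 1) := rfl

theorem isWreath_cOf (D : Subgroup (GL κ F)) :
    IsWreath (cOf (m := m) (L := L) D) (pOf κ L m F) := by
  intro σ n
  rw [mul_inv_eq_iff_eq_mul, cOf_apply, cOf_apply, pOf_apply, ← map_mul, ← map_mul]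
  congr 1
  refine Prod.ext ?_ ?_
  · exact isWreath_bHom _ _
  · change 1 * _ = _ * 1
    rw [one_mul, mul_one]

theorem injective_mul [Nonempty κ] (h2 : (2 : F) ≠ 0) (D : Subgroup (GL κ F))
    (T : Subgroup (Perm (Fin m))) :
    Function.Injective fun p : ((Fin m → D) × (L → ℤˣ)) × T =>
      cOf (L := L) (m := m) D p.1 * pOf κ L m F p.2 := by
  rintro ⟨⟨f, s⟩, t⟩ ⟨⟨f', s'⟩, t'⟩ h
  have h1 : sumHom (κ × Fin m) L F (bHom κ m F (fun i => ((f i : D) : GL κ F)) *
      pHom κ m F (t : Perm (Fin m)), signHom L F s) =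
      sumHom (κ × Fin m) L F (bHom κ m F (fun i => ((f' i : D) : GL κ F)) *
      pHom κ m F (t' : Perm (Fin m)), signHom L F s') := by
    have h3 : ∀ (f : Fin m → D) (s : L → ℤˣ) (t : T),
        cOf (L := L) (m := m) D (f, s) * pOf κ L m F t =
        sumHom (κ × Fin m) L F (bHom κ m F (fun i => ((f i : D) : GL κ F)) *
          pHom κ m F (t : Perm (Fin m)), signHom L F s) := by
      intro f s t
      rw [cOf_apply, pOf_apply, ← map_mul]
      congr 1
      exact Prod.ext rfl (mul_one _)
    rw [← h3, ← h3]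
    exact h
  have h4 := sumHom_injective h1
  have h5 := bHom_mul_pHom_injective D T f f' t t' (congrArg Prod.fst h4)
  have h6 := signHom_injective h2 (congrArg Prod.snd h4)
  rw [h5.1, h5.2, h6]

theorem cOf_injective [Nonempty κ] (h2 : (2 : F) ≠ 0) (D : Subgroup (GL κ F)) :
    Function.Injective (cOf (m := m) (L := L) D) := by
  intro a b h
  have := injective_mul (m := m) (L := L) h2 D ⊥ (a₁ := (a, 1)) (a₂ := (b, 1)) (by
    simpa using h)
  exact congrArg Prod.fst this

section Coord

variable (D : Subgroup (GL κ F))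

/-- Coordinates of the action of the base group. -/
theorem act_cOf_inl (n : (Fin m → D) × (L → ℤˣ)) (v : Idx κ L m → F) (a : κ) (i : Fin m) :
    Weight.act (cOf D n) v (Sum.inl (a, i)) =
      Weight.act ((n.1 i : D) : GL κ F) (fun b => v (Sum.inl (b, i))) a := by
  rw [cOf_apply]
  simp only [Weight.act, sumHom_coe]
  have h1 : (v : Idx κ L m → F) = Sum.elim (v ∘ Sum.inl) (v ∘ Sum.inr) := by
    funext x
    cases x <;> rfl
  rw [h1, fromBlocks_mulVec]
  simp only [Sum.elim_inl, Sum.elim_comp_inl, Sum.elim_comp_inr, zero_mulVec, add_zero]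
  simp only [mulVec, dotProduct, bHom_coe]
  rw [Fintype.sum_prod_type]
  refine Finset.sum_congr rfl fun b _ => ?_
  rw [Finset.sum_eq_single i]
  · rw [blockDiagonal_apply_eq]
  · intro j _ hj
    rw [blockDiagonal_apply_ne _ _ _ hj.symm, zero_mul]
  · intro h
    exact absurd (Finset.mem_univ i) h

theorem act_cOf_inr (n : (Fin m → D) × (L → ℤˣ)) (v : Idx κ L m → F) (l : L) :
    Weight.act (cOf D n) v (Sum.inr l) = signVal F (n.2 l) * v (Sum.inr l) := by
  rw [cOf_apply]
  simp only [Weight.act, sumHom_coe]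
  have h1 : (v : Idx κ L m → F) = Sum.elim (v ∘ Sum.inl) (v ∘ Sum.inr) := by
    funext x
    cases x <;> rfl
  rw [h1, fromBlocks_mulVec]
  simp only [Sum.elim_inr, Sum.elim_comp_inl, Sum.elim_comp_inr, zero_mulVec, zero_add]
  change (diagonal (fun i => signVal F (n.2 i))).mulVec (v ∘ Sum.inr) l = _
  rw [mulVec_diagonal]

end Coord

end Cfsg.Agent.Lib.NRank.Block
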