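import Mathlib
import Cfsg.Agent.Lib.NRank.Block
import Cfsg.Prelude.Def_Transfer

/-!
# Normal elementary abelian subgroups of a Sylow `2`-subgroup of `GL`
-/

set_option autoImplicit false
set_option linter.unusedSectionVars false

namespace Cfsg.Agent.Lib.NRank.Main

open Matrix Equiv Cfsg.Agent.Lib.OrthSyl.Core Cfsg.Agent.Lib.Linalg.ElemAbelian
open Cfsg.Agent.Lib.NRank.Weight Cfsg.Agent.Lib.NRank.Block
open scoped MatrixGroups

universe u

/-- Some normal elementary abelian `2`-subgroup has order at least `2 ^ r`. -/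
def LowerB (X : Type*) [Group X] (r : ℕ) : Prop :=
  ∃ E : Subgroup X, E.Normal ∧ Cfsg.IsElementaryAbelian 2 E ∧ 2 ^ r ≤ Nat.card E

/-- All normal elementary abelian `2`-subgroups have order at most `2 ^ r`. -/
def UpperB (X : Type*) [Group X] (r : ℕ) : Prop :=
  ∀ E : Subgroup X, E.Normal → Cfsg.IsElementaryAbelian 2 E → Nat.card E ≤ 2 ^ r

section Transport

variable {X Y : Type*} [Group X] [Group Y]

theorem isElementaryAbelian_map (e : X ≃* Y) {E : Subgroup X} (h : Cfsg.IsElementaryAbelian 2 E) :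
    Cfsg.IsElementaryAbelian 2 (E.map e.toMonoidHom) := by
  refine ⟨⟨⟨?_⟩⟩, ?_⟩
  · rintro ⟨_, a, ha, rfl⟩ ⟨_, b, hb, rfl⟩
    apply Subtype.ext
    have := h.1.is_comm.comm ⟨a, ha⟩ ⟨b, hb⟩
    have h3 : a * b = b * a := congrArg Subtype.val this
    change e a * e b = e b * e a
    rw [← map_mul, ← map_mul, h3]
  · rintro _ ⟨a, ha, rfl⟩
    change (e a) ^ 2 = 1
    rw [← map_pow, h.2 a ha, map_one]

theorem card_map_equiv (e : X ≃* Y) (E : Subgroup X) :
    Nat.card (E.map e.toMonoidHom) = Nat.card E :=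
  Nat.card_congr (e.subgroupMap E).toEquiv.symm

theorem LowerB.of_mulEquiv (e : X ≃* Y) {r : ℕ} (h : LowerB X r) : LowerB Y r := by
  obtain ⟨E, h1, h2, h3⟩ := h
  refine ⟨E.map e.toMonoidHom, h1.map e.toMonoidHom e.surjective, isElementaryAbelian_map e h2, ?_⟩
  rwa [card_map_equiv]

theorem UpperB.of_mulEquiv (e : X ≃* Y) {r : ℕ} (h : UpperB X r) : UpperB Y r := by
  intro E h1 h2
  have h3 := h (E.map e.symm.toMonoidHom) (h1.map e.symm.toMonoidHom e.symm.surjective)
    (isElementaryAbelian_map e.symm h2)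
  rwa [card_map_equiv] at h3

variable {F : Type u} [Field F] [Finite F] {ι ι' : Type} [Fintype ι] [DecidableEq ι] [Fintype ι'] [DecidableEq ι']

/-- Reindexing `GL`. -/
noncomputable def glRe (e : ι ≃ ι') : GL ι F ≃* GL ι' F :=
  Units.mapEquiv (Matrix.reindexAlgEquiv F F e).toMulEquiv

/-- All Sylow subgroups of `GL` are isomorphic, also for different index types. -/
theorem exists_sylow_equiv (e : ι ≃ ι') (R : Sylow 2 (GL ι F)) (S : Sylow 2 (GL ι' F)) :
    Nonempty ((R : Subgroup (GL ι F)) ≃* (S : Subgroup (GL ι' F))) := by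
  classical
  haveI : Fact (Nat.Prime 2) := ⟨Nat.prime_two⟩
  haveI : Finite (GL ι' F) := by
    let _ := Fintype.ofFinite F
    exact inferInstance
  let f : GL ι F ≃* GL ι' F := glRe e
  let R' : Sylow 2 (GL ι' F) := R.mapSurjective (f := f.toMonoidHom) f.surjective
  have hR' : (R' : Subgroup (GL ι' F)) = (R : Subgroup (GL ι F)).map f.toMonoidHom :=
    Sylow.coe_mapSurjective _ _
  have e1 : (R : Subgroup (GL ι F)) ≃* (R : Subgroup (GL ι F)).map f.toMonoidHom := f.subgroupMap _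
  have e2 : (R : Subgroup (GL ι F)).map f.toMonoidHom ≃* (R' : Subgroup (GL ι' F)) :=
    MulEquiv.subgroupCongr hR'.symm
  exact ⟨(e1.trans e2).trans (Sylow.equiv R' S)⟩

end Transport

section Centre

variable {F : Type u} [Field F] {κ L : Type} [Fintype κ] [DecidableEq κ] [Fintype L] [DecidableEq L]
  {m : ℕ}

/-- Signs as scalar matrices. -/
def nuHom (κ : Type) [Fintype κ] [DecidableEq κ] (F : Type u) [Field F] : ℤˣ →* GL κ F :=
  Units.map (Int.castRingHom (Matrix κ κ F)).toMonoidHom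

theorem nuHom_neg_one : nuHom κ F (-1) = -1 := by
  apply Units.ext
  simp [nuHom]

theorem nuHom_coe (u : ℤˣ) : ((nuHom κ F u : GL κ F) : Matrix κ κ F) = ((u : ℤ) : Matrix κ κ F) := rfl

theorem nuHom_commute (u : ℤˣ) (g : GL κ F) : nuHom κ F u * g = g * nuHom κ F u := by
  apply Units.ext
  rw [Units.val_mul, Units.val_mul, nuHom_coe]
  exact (Int.cast_commute _ _)

theorem nuHom_injective [Nonempty κ] (h2 : (2 : F) ≠ 0) : Function.Injective (nuHom κ F) := by
  intro a b h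
  have key : ∀ u : ℤˣ, u = 1 ∨ u = -1 := Int.units_eq_one_or
  obtain ⟨k⟩ := ‹Nonempty κ›
  have h1 : ∀ u : ℤˣ, ((nuHom κ F u : GL κ F) : Matrix κ κ F) k k = ((u : ℤ) : F) := by
    intro u
    rw [nuHom_coe]
    simp [Matrix.intCast_apply]
  have h3 := congrArg (fun g : GL κ F => (g : Matrix κ κ F) k k) h
  simp only [h1] at h3
  rcases key a with rfl | rfl <;> rcases key b with rfl | rfl
  · rfl
  · exfalso
    apply h2
    simp at h3
    linear_combination h3
  · exfalso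
    apply h2
    simp at h3
    linear_combination -h3
  · rfl

/-- Signs in a subgroup containing `-1`. -/
def nuA (A : Subgroup (GL κ F)) (hA : (-1 : GL κ F) ∈ A) : ℤˣ →* A :=
  (nuHom κ F).codRestrict A (by
    intro u
    rcases Int.units_eq_one_or u with rfl | rfl
    · rw [map_one]
      exact A.one_mem
    · rw [nuHom_neg_one]
      exact hA)

/-- The central signs in the base group. -/
def zBase (A : Subgroup (GL κ F)) (hA : (-1 : GL κ F) ∈ A) :
    (Fin m → ℤˣ) × (L → ℤˣ) →* (Fin m → A) × (L → ℤˣ) :=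
  (MonoidHom.compLeft (nuA A hA) (Fin m)).prodMap (MonoidHom.id _)

theorem zBase_injective [Nonempty κ] (h2 : (2 : F) ≠ 0) (A : Subgroup (GL κ F)) (hA : (-1 : GL κ F) ∈ A) :
    Function.Injective (zBase (m := m) (L := L) A hA) := by
  rintro ⟨a, a'⟩ ⟨b, b'⟩ h
  have h3 := congrArg Prod.fst h
  have h4 : a' = b' := congrArg Prod.snd h
  have h5 : a = b := by
    funext i
    have h6 := congrFun h3 i
    exact nuHom_injective (κ := κ) h2 (congrArg Subtype.val h6)
  rw [h4, h5]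

/-- The central signs. -/
noncomputable def zSub (A : Subgroup (GL κ F)) (hA : (-1 : GL κ F) ∈ A) :
    Subgroup (GL (Idx κ L m) F) :=
  ((cOf (m := m) (L := L) A).comp (zBase A hA)).range

theorem card_zSub [Nonempty κ] (h2 : (2 : F) ≠ 0) (A : Subgroup (GL κ F)) (hA : (-1 : GL κ F) ∈ A) :
    Nat.card (zSub (m := m) (L := L) A hA) = 2 ^ (m + Fintype.card L) := by
  have hinj : Function.Injective ((cOf (m := m) (L := L) A).comp (zBase A hA)) :=
    (cOf_injective h2 A).comp (zBase_injective h2 A hA)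
  rw [zSub, Nat.card_congr (MonoidHom.ofInjective hinj).toEquiv.symm, Nat.card_prod, Nat.card_fun,
    Nat.card_fun]
  simp [pow_add]

theorem isElementaryAbelian_zSub (A : Subgroup (GL κ F)) (hA : (-1 : GL κ F) ∈ A) :
    IsMulCommutative (zSub (m := m) (L := L) A hA) ∧ ∀ d ∈ zSub (m := m) (L := L) A hA, d ^ 2 = 1 := by
  refine ⟨⟨⟨?_⟩⟩, ?_⟩
  · rintro ⟨_, a, rfl⟩ ⟨_, b, rfl⟩
    apply Subtype.ext
    simp only [Subgroup.coe_mul, ← map_mul]
    rw [mul_comm]
  · rintro _ ⟨a, rfl⟩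
    rw [← map_pow]
    have : a ^ 2 = 1 := by
      refine Prod.ext ?_ ?_
      · funext i
        exact Int.units_sq (a.1 i)
      · funext i
        exact Int.units_sq (a.2 i)
    rw [this, map_one]

theorem zSub_le (A : Subgroup (GL κ F)) (hA : (-1 : GL κ F) ∈ A) (T : Subgroup (Perm (Fin m))) :
    zSub (m := m) (L := L) A hA ≤ wreathSub (isWreath_cOf (m := m) (L := L) A) T := by
  rintro _ ⟨a, rfl⟩
  exact ⟨zBase A hA a, 1, T.one_mem, by simp⟩

theorem zSub_normal (A : Subgroup (GL κ F)) (hA : (-1 : GL κ F) ∈ A) (T : Subgroup (Perm (Fin m)))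
    {x d : GL (Idx κ L m) F} (hx : x ∈ wreathSub (isWreath_cOf (m := m) (L := L) A) T)
    (hd : d ∈ zSub (m := m) (L := L) A hA) : x * d * x⁻¹ ∈ zSub (m := m) (L := L) A hA := by
  obtain ⟨n, t, _, rfl⟩ := hx
  obtain ⟨a, rfl⟩ := hd
  have h1 : pOf κ L m F t * ((cOf (m := m) (L := L) A).comp (zBase A hA)) a * (pOf κ L m F t)⁻¹ =
      ((cOf (m := m) (L := L) A).comp (zBase A hA)) (fun i => a.1 (t⁻¹ i), a.2) := by
    exact isWreath_cOf (m := m) (L := L) A t (zBase A hA a)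
  have h3 : n * zBase A hA (fun i => a.1 (t⁻¹ i), a.2) = zBase A hA (fun i => a.1 (t⁻¹ i), a.2) * n := by
    refine Prod.ext ?_ ?_
    · funext i
      apply Subtype.ext
      exact (nuHom_commute _ _).symm
    · exact mul_comm _ _
  refine ⟨(fun i => a.1 (t⁻¹ i), a.2), ?_⟩
  calc ((cOf (m := m) (L := L) A).comp (zBase A hA)) (fun i => a.1 (t⁻¹ i), a.2)
      = cOf A n * (cOf A (zBase A hA (fun i => a.1 (t⁻¹ i), a.2))) * (cOf A n)⁻¹ := by
        rw [← map_mul, h3, map_mul]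
        group
        rfl
    _ = cOf A n * (pOf κ L m F t * ((cOf (m := m) (L := L) A).comp (zBase A hA)) a * (pOf κ L m F t)⁻¹) *
        (cOf A n)⁻¹ := by
        rw [h1]
        rfl
    _ = _ := by group

/-- The lower bound in the wreath Sylow subgroup. -/
theorem lowerB_wreath [Nonempty κ] (h2 : (2 : F) ≠ 0) (A : Subgroup (GL κ F)) (hA : (-1 : GL κ F) ∈ A)
    (T : Subgroup (Perm (Fin m))) :
    LowerB (wreathSub (isWreath_cOf (m := m) (L := L) A) T) (m + Fintype.card L) := by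
  set R := wreathSub (isWreath_cOf (m := m) (L := L) A) T with hR
  refine ⟨(zSub (m := m) (L := L) A hA).subgroupOf R, ?_, ?_, ?_⟩
  · constructor
    intro d hd x
    rw [Subgroup.mem_subgroupOf] at hd ⊢
    exact zSub_normal A hA T x.2 hd
  · obtain ⟨h3, h4⟩ := isElementaryAbelian_zSub (m := m) (L := L) A hA
    refine ⟨⟨⟨?_⟩⟩, ?_⟩
    · rintro ⟨a, ha⟩ ⟨b, hb⟩
      apply Subtype.ext
      apply Subtype.ext
      have := h3.is_comm.comm ⟨a.1, ha⟩ ⟨b.1, hb⟩
      have h5 : a.1 * b.1 = b.1 * a.1 := congrArg Subtype.val this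
      exact h5
    · rintro a ha
      apply Subtype.ext
      exact h4 a.1 ha
  · rw [Nat.card_congr (Subgroup.subgroupOfEquivOfLe (zSub_le A hA T)).toEquiv, card_zSub h2]

end Centre

section Upper

variable {F : Type u} [Field F] [Finite F] {ι : Type} [Fintype ι] [DecidableEq ι]

/-- Reduction of the upper bound to subgroups of `GL`. -/
theorem upperB_of (R : Subgroup (GL ι F)) (r : ℕ)
    (hX : ∀ E : Subgroup (GL ι F), IsMulCommutative E → (∀ a ∈ E, a ^ 2 = 1) →
      (∀ x ∈ R, ∀ e ∈ E, x⁻¹ * e * x ∈ E) → Nat.card E ≤ 2 ^ r) : UpperB R r := by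
  intro E₀ hn he
  have hinj : Function.Injective R.subtype := Subtype.val_injective
  have h1 : Nat.card (E₀.map R.subtype) = Nat.card E₀ :=
    Nat.card_congr (E₀.equivMapOfInjective _ hinj).toEquiv.symm
  rw [← h1]
  apply hX
  · refine ⟨⟨?_⟩⟩
    rintro ⟨_, a, ha, rfl⟩ ⟨_, b, hb, rfl⟩
    apply Subtype.ext
    have := he.1.is_comm.comm ⟨a, ha⟩ ⟨b, hb⟩
    have h3 : a * b = b * a := congrArg Subtype.val this
    change a.1 * b.1 = b.1 * a.1
    exact congrArg Subtype.val h3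
  · rintro _ ⟨a, ha, rfl⟩
    rw [← map_pow, he.2 a ha, map_one]
  · rintro x hx _ ⟨a, ha, rfl⟩
    have h3 := hn.conj_mem a ha (⟨x, hx⟩ : R)⁻¹
    refine ⟨_, h3, ?_⟩
    simp

end Upper

section Three

variable {F : Type u} [Field F] [Finite F] {κ L : Type} [Fintype κ] [DecidableEq κ] [Fintype L]
  [DecidableEq L] {m : ℕ}

/-- A weight space of dimension one has no component in a block, if the Sylow subgroup contains
an element with a suitable minimal polynomial and with no eigenvectors. -/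
theorem isSing_zero (A : Subgroup (GL κ F)) (T : Subgroup (Perm (Fin m)))
    {c₀ : GL κ F} (hc₀ : c₀ ∈ A) {t δ : F} (hδ : δ ≠ 0)
    (hrel : (c₀ : Matrix κ κ F) * c₀ = t • (c₀ : Matrix κ κ F) - δ • 1)
    (hno : ∀ k : ℕ, 1 ≤ k → k ≤ 3 → ∀ (u : κ → F) (a : F), Weight.act (c₀ ^ k) u = a • u → u = 0)
    (E : Subgroup (GL (Idx κ L m) F))
    (hN : ∀ x ∈ wreathSub (isWreath_cOf (m := m) (L := L) A) T, ∀ e ∈ E, x⁻¹ * e * x ∈ E)
    {v : Idx κ L m → F} (hv : IsSing E v) (a : κ) (i : Fin m) : v (Sum.inl (a, i)) = 0 := by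
  classical
  obtain ⟨l, hl1, hvw, hl⟩ := hv
  let c : A := ⟨c₀, hc₀⟩
  let x : GL (Idx κ L m) F := cOf A (Pi.mulSingle i c, 1)
  have hx : x ∈ wreathSub (isWreath_cOf (m := m) (L := L) A) T :=
    ⟨(Pi.mulSingle i c, 1), 1, T.one_mem, by simp [x]⟩
  have hxk : ∀ k : ℕ, x ^ k = cOf A (Pi.mulSingle i (c ^ k), 1) := by
    intro k
    change (cOf A (Pi.mulSingle i c, 1)) ^ k = _
    rw [← map_pow]
    congr 1
    refine Prod.ext ?_ (by simp)
    change (Pi.mulSingle i c : Fin m → A) ^ k = Pi.mulSingle i (c ^ k)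
    funext j
    by_cases hj : j = i
    · subst hj
      simp
    · simp [hj]
  set vi : κ → F := fun b => v (Sum.inl (b, i)) with hvi
  -- coordinates
  have hcoord1 : ∀ (k : ℕ) (b : κ), Weight.act (x ^ k) v (Sum.inl (b, i)) = Weight.act (c₀ ^ k) vi b := by
    intro k b
    rw [hxk, act_cOf_inl]
    simp only [Pi.mulSingle_eq_same]
    rfl
  have hcoord2 : ∀ (k : ℕ) (b : κ) (j : Fin m), j ≠ i → Weight.act (x ^ k) v (Sum.inl (b, j)) = v (Sum.inl (b, j)) := by
    intro k b j hj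
    rw [hxk, act_cOf_inl]
    simp only [Pi.mulSingle_eq_of_ne hj, OneMemClass.coe_one, act_one]
  have hcoord3 : ∀ (k : ℕ) (j : L), Weight.act (x ^ k) v (Sum.inr j) = v (Sum.inr j) := by
    intro k j
    rw [hxk, act_cOf_inr]
    simp [signVal]
  -- the relation
  have hmat : ((c₀ ^ 3 : GL κ F) : Matrix κ κ F) - (t + 1) • ((c₀ ^ 2 : GL κ F) : Matrix κ κ F) +
      (t + δ) • ((c₀ ^ 1 : GL κ F) : Matrix κ κ F) - δ • (1 : Matrix κ κ F) = 0 := by
    have h2 : ((c₀ ^ 2 : GL κ F) : Matrix κ κ F) = t • (c₀ : Matrix κ κ F) - δ • 1 := by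
      rw [pow_two, Units.val_mul, hrel]
    have h3 : ((c₀ ^ 3 : GL κ F) : Matrix κ κ F) = t • ((c₀ ^ 2 : GL κ F) : Matrix κ κ F) - δ • (c₀ : Matrix κ κ F) := by
      rw [pow_succ, Units.val_mul, h2, Matrix.sub_mul, Matrix.smul_mul, Matrix.smul_mul, hrel, one_mul]
    rw [h3, h2, pow_one]
    module
  have hrelv : ∀ u : κ → F, Weight.act (c₀ ^ 3) u - (t + 1) • Weight.act (c₀ ^ 2) u + (t + δ) • Weight.act (c₀ ^ 1) u -
      δ • u = 0 := by
    intro u
    have h3 := congrArg (fun M : Matrix κ κ F => M.mulVec u) hmat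
    simp only [Matrix.sub_mulVec, Matrix.add_mulVec, Matrix.smul_mulVec, Matrix.one_mulVec, Matrix.zero_mulVec] at h3
    exact h3
  have hrelV : Weight.act (x ^ 3) v - (t + 1) • Weight.act (x ^ 2) v + (t + δ) • Weight.act (x ^ 1) v - δ • v = 0 := by
    funext y
    rcases y with ⟨b, j⟩ | j
    · by_cases hj : j = i
      · subst hj
        simp only [Pi.sub_apply, Pi.add_apply, Pi.smul_apply, smul_eq_mul, Pi.zero_apply, hcoord1]
        have h3 := congrFun (hrelv vi) b
        simpa [hvi] using h3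
      · simp only [Pi.sub_apply, Pi.add_apply, Pi.smul_apply, smul_eq_mul, Pi.zero_apply, hcoord2 _ _ _ hj]
        ring
    · simp only [Pi.sub_apply, Pi.add_apply, Pi.smul_apply, smul_eq_mul, Pi.zero_apply, hcoord3]
      ring
  -- the functional
  have hvk : ∀ k : ℕ, IsWt E (Weight.act (x ^ k) v) := by
    intro k
    exact hvw.act (hN _ (pow_mem hx k))
  have hlk := congrArg l hrelV
  simp only [map_sub, map_add, map_smul, hl1, map_zero, smul_eq_mul, mul_one] at hlk
  have hex : ∃ k : ℕ, 1 ≤ k ∧ k ≤ 3 ∧ l (Weight.act (x ^ k) v) ≠ 0 := by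
    by_contra hcon
    push Not at hcon
    rw [hcon 3 (by norm_num) le_rfl, hcon 2 (by norm_num) (by norm_num), hcon 1 le_rfl (by norm_num)] at hlk
    apply hδ
    linear_combination -hlk
  obtain ⟨k, hk1, hk3, hk⟩ := hex
  obtain ⟨s, hs⟩ := hl _ (hvk k) hk
  have h0 : vi = 0 := by
    apply hno k hk1 hk3 vi s
    funext b
    rw [← hcoord1, hs]
    rfl
  exact congrFun h0 a

/-- The upper bound for `q ≡ 3 mod 4`. -/
theorem upperB_three (h2 : (2 : F) ≠ 0) (A : Subgroup (GL κ F)) (T : Subgroup (Perm (Fin m)))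
    {c₀ : GL κ F} (hc₀ : c₀ ∈ A) {t δ : F} (hδ : δ ≠ 0)
    (hrel : (c₀ : Matrix κ κ F) * c₀ = t • (c₀ : Matrix κ κ F) - δ • 1)
    (hno : ∀ k : ℕ, 1 ≤ k → k ≤ 3 → ∀ (u : κ → F) (a : F), Weight.act (c₀ ^ k) u = a • u → u = 0)
    (hL : Subsingleton L) :
    UpperB (wreathSub (isWreath_cOf (m := m) (L := L) A) T) ((Fintype.card (Idx κ L m) + 1) / 2) := by
  apply upperB_of
  intro E hc hE hN
  apply card_le_of_sing h2 E hc hE
  intro v w hv hw
  have hzero := isSing_zero A T hc₀ hδ hrel hno E hN hv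
  have hzero' := isSing_zero A T hc₀ hδ hrel hno E hN hw
  obtain ⟨l, hl1, _, _⟩ := hv
  have hv0 : v ≠ 0 := by
    rintro rfl
    simp at hl1
  obtain ⟨y, hy⟩ : ∃ y, v y ≠ 0 := by
    by_contra hcon
    push Not at hcon
    exact hv0 (funext hcon)
  rcases y with ⟨a, i⟩ | j
  · exact absurd (hzero a i) hy
  · refine ⟨w (Sum.inr j) / v (Sum.inr j), ?_⟩
    funext y
    rcases y with ⟨a, i⟩ | j'
    · simp [hzero, hzero']
    · rw [Subsingleton.elim j' j]
      simp only [Pi.smul_apply, smul_eq_mul]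
      field_simp

end Three

end Cfsg.Agent.Lib.NRank.Main
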