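import Mathlib
import Cfsg.Agent.Lib.NRank.Main
import Cfsg.Agent.Lib.SLSyl.Count

/-!
# Normal `2`-rank of a Sylow `2`-subgroup of `GL_n(q)`, `q` odd
-/

set_option autoImplicit false
set_option linter.unusedSectionVars false

namespace Cfsg.Agent.Lib.NRank.GL

open Matrix Equiv Cfsg.Agent.Lib.OrthSyl.Core Cfsg.Agent.Lib.Linalg.ElemAbelian
open Cfsg.Agent.Lib.NRank.Weight Cfsg.Agent.Lib.NRank.Block Cfsg.Agent.Lib.NRank.Main
open Cfsg.Agent.Lib.SLSyl.Count Cfsg.Agent.Lib.OrthSyl.Count
open scoped MatrixGroups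

universe u

variable {F : Type u} [Field F] [Fintype F]

theorem two_ne_zero_of_odd (hF : Odd (Fintype.card F)) : (2 : F) ≠ 0 := by
  apply Ring.two_ne_zero
  intro h
  have h3 := FiniteField.even_card_iff_char_two.1 h
  have h4 := Nat.odd_iff.1 hF
  omega

section Count

theorem val_GL' (n : ℕ) :
    (Nat.card (GL (Fin n) F)).factorization 2 = padicValNat 2 (wP (Fintype.card F) n) := by
  rw [Matrix.card_GL_field, Nat.factorization_def _ Nat.prime_two, wP,
    Fin.prod_univ_eq_prod_range (fun i => Fintype.card F ^ n - Fintype.card F ^ i) n]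

theorem card_GL_congr' {ι κ : Type} [Fintype ι] [DecidableEq ι] [Fintype κ] [DecidableEq κ] (e : ι ≃ κ) :
    Nat.card (GL ι F) = Nat.card (GL κ F) :=
  Nat.card_congr (glRe e).toEquiv

theorem val_GL_of {ι : Type} [Fintype ι] [DecidableEq ι] {n : ℕ} (h : Fintype.card ι = n) :
    (Nat.card (GL ι F)).factorization 2 = padicValNat 2 (wP (Fintype.card F) n) := by
  rw [card_GL_congr' (Fintype.equivFinOfCardEq h), val_GL']

/-- The valuation of `|GL_n(q)|` for `q ≡ 1 mod 4`. -/
theorem val_wP_one {q : ℕ} (hq : q % 4 = 1) (h1 : 1 < q) (n : ℕ) :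
    padicValNat 2 (wP q n) = n * padicValNat 2 (q - 1) + padicValNat 2 n.factorial := by
  have hodd : Odd q := Nat.odd_iff.2 (by omega)
  induction n with
  | zero => simp [wP]
  | succ n ih =>
    rw [val_wP_succ hodd h1, ih, val_factorial_succ]
    have h2 : padicValNat 2 (q ^ (n + 1) - 1) = padicValNat 2 (q - 1) + padicValNat 2 (n + 1) := by
      rcases Nat.even_or_odd (n + 1) with ⟨k, hk⟩ | hk
      · have hk' : n + 1 = 2 * k := by omega
        rw [hk', val_even_sub hodd h1 (by omega), val_add_of_one hq, val_two_mul (by omega)]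
        ring
      · rw [val_odd_sub hodd h1 hk, padicValNat.eq_zero_of_not_dvd (p := 2) (n := n + 1) (by
          intro h
          exact (Nat.not_even_iff_odd.2 hk) (even_iff_two_dvd.2 h))]
        simp
    rw [h2]
    ring

end Count

section Sylow

variable {κ L : Type} [Fintype κ] [DecidableEq κ] [Fintype L] [DecidableEq L] {m : ℕ}

theorem exists_sylow_wreath [Nonempty κ] (h2 : (2 : F) ≠ 0) (A : Sylow 2 (GL κ F))
    (T : Sylow 2 (Perm (Fin m)))
    (hcount : (Nat.card (GL κ F)).factorization 2 * m + padicValNat 2 m.factorial + Fintype.card L =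
      (Nat.card (GL (Idx κ L m) F)).factorization 2) :
    ∃ R : Sylow 2 (GL (Idx κ L m) F), (R : Subgroup (GL (Idx κ L m) F)) =
      wreathSub (isWreath_cOf (m := m) (L := L) (A : Subgroup (GL κ F))) (T : Subgroup (Perm (Fin m))) := by
  classical
  haveI : Fact (Nat.Prime 2) := ⟨Nat.prime_two⟩
  refine ⟨Sylow.ofCard (wreathSub (isWreath_cOf (m := m) (L := L) (A : Subgroup (GL κ F)))
    (T : Subgroup (Perm (Fin m)))) ?_, rfl⟩
  have hm : (m.factorial).factorization 2 = padicValNat 2 m.factorial :=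
    Nat.factorization_def _ Nat.prime_two
  have h5 : Nat.card ℤˣ = 2 := by simp
  rw [card_wreathSub _ _ (injective_mul h2 _ _), Sylow.card_eq_multiplicity A, Sylow.card_eq_multiplicity T,
    ← hcount, Nat.card_eq_fintype_card (α := Perm (Fin m)), Fintype.card_perm, Fintype.card_fin,
    hm, Nat.card_fun, h5, Nat.card_eq_fintype_card (α := L), pow_add, pow_add, ← pow_mul]
  ring

theorem lowerB_sylow [Nonempty κ] (h2 : (2 : F) ≠ 0) (A : Sylow 2 (GL κ F)) (hA : (-1 : GL κ F) ∈ A)
    (T : Sylow 2 (Perm (Fin m))) {R : Sylow 2 (GL (Idx κ L m) F)}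
    (hR : (R : Subgroup (GL (Idx κ L m) F)) =
      wreathSub (isWreath_cOf (m := m) (L := L) (A : Subgroup (GL κ F))) (T : Subgroup (Perm (Fin m)))) :
    LowerB (R : Subgroup (GL (Idx κ L m) F)) (m + Fintype.card L) :=
  (lowerB_wreath (m := m) (L := L) h2 (A : Subgroup (GL κ F)) hA (T : Subgroup (Perm (Fin m)))).of_mulEquiv
    (MulEquiv.subgroupCongr hR.symm)

end Sylow

section One

/-- `-1` lies in a Sylow `2`-subgroup. -/
theorem exists_sylow_neg (κ : Type) [Fintype κ] [DecidableEq κ] :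
    ∃ A : Sylow 2 (GL κ F), (-1 : GL κ F) ∈ A := by
  have h : IsPGroup 2 (Subgroup.zpowers (-1 : GL κ F)) := by
    rintro ⟨x, k, rfl⟩
    refine ⟨1, ?_⟩
    apply Subtype.ext
    change ((-1 : GL κ F) ^ k) ^ (2 ^ 1) = 1
    rw [pow_one, ← zpow_natCast, ← _root_.zpow_mul, mul_comm, _root_.zpow_mul, zpow_natCast, pow_two,
      neg_one_mul, neg_neg, _root_.one_zpow]
  obtain ⟨A, hA⟩ := h.exists_le_sylow
  exact ⟨A, hA (Subgroup.mem_zpowers _)⟩

theorem case_one (hq : Fintype.card F % 4 = 1) (n : ℕ) (S : Sylow 2 (GL (Fin n) F)) :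
    LowerB (S : Subgroup (GL (Fin n) F)) n ∧ UpperB (S : Subgroup (GL (Fin n) F)) n := by
  classical
  have hq1 : 1 < Fintype.card F := Fintype.one_lt_card
  have hodd : Odd (Fintype.card F) := Nat.odd_iff.2 (by omega)
  have h2 : (2 : F) ≠ 0 := two_ne_zero_of_odd hodd
  obtain ⟨A, hA⟩ := exists_sylow_neg (F := F) Unit
  let T : Sylow 2 (Perm (Fin n)) := default
  have hcardI : Fintype.card (Idx Unit Empty n) = n := by simp
  obtain ⟨R, hR⟩ := exists_sylow_wreath (L := Empty) h2 A T (by
    rw [val_GL_of hcardI, val_wP_one hq hq1, val_GL_of (n := 1) (by simp)]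
    simp [wP, mul_comm])
  obtain ⟨e⟩ := exists_sylow_equiv (Fintype.equivFinOfCardEq hcardI) R S
  constructor
  · have h3 := lowerB_sylow h2 A hA T hR
    simp only [Fintype.card_eq_zero, add_zero] at h3
    exact h3.of_mulEquiv e
  · have h3 : UpperB (R : Subgroup (GL (Idx Unit Empty n) F)) n := by
      apply upperB_of
      intro E hc hE _
      have := card_le_pow h2 E hc hE
      rwa [hcardI] at this
    exact h3.of_mulEquiv e

end One

section Three

/-- An element with `c⁴ = -1` and a quadratic relation. -/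
theorem exists_c₀ (hq : Fintype.card F % 4 = 3) : ∃ (c₀ : GL (Fin 2) F) (t δ : F), δ ≠ 0 ∧
    (c₀ : Matrix (Fin 2) (Fin 2) F) * c₀ = t • (c₀ : Matrix (Fin 2) (Fin 2) F) - δ • 1 ∧ c₀ ^ 4 = -1 := by
  classical
  have hodd : Odd (Fintype.card F) := Nat.odd_iff.2 (by omega)
  have h2 : (2 : F) ≠ 0 := two_ne_zero_of_odd hodd
  have hc2 : ringChar F ≠ 2 := by
    intro h
    have := FiniteField.even_card_iff_char_two.1 h
    omega
  -- the numbers `a`, `b`
  obtain ⟨a, b, hab1, hab2⟩ : ∃ a b : F, a * a = b * b ∧ 2 * (a * b) = 1 := by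
    by_cases hs : IsSquare (2 : F)
    · obtain ⟨s, hs⟩ := hs
      have hs0 : s ≠ 0 := by
        rintro rfl
        apply h2
        simpa using hs
      refine ⟨s⁻¹, s⁻¹, rfl, ?_⟩
      field_simp
      rw [hs]
      ring
    · have hn : ¬ IsSquare (-1 : F) := by
        rw [FiniteField.isSquare_neg_one_iff]
        simpa using hq
      have h3 : quadraticChar F 2 = -1 := (quadraticChar_neg_one_iff_not_isSquare).2 hs
      have h4 : quadraticChar F (-1) = -1 := (quadraticChar_neg_one_iff_not_isSquare).2 hn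
      have h5 : quadraticChar F (-2) = 1 := by
        have : (-2 : F) = (-1) * 2 := by ring
        rw [this, map_mul, h3, h4]
        norm_num
      have h6 : IsSquare (-2 : F) := by
        refine (quadraticChar_one_iff_isSquare ?_).1 h5
        exact neg_ne_zero.2 h2
      obtain ⟨s, hs'⟩ := h6
      have hs0 : s ≠ 0 := by
        rintro rfl
        apply h2
        have : (2 : F) = - (0 * 0) := by
          rw [← hs']
          ring
        simpa using this
      refine ⟨s⁻¹, -s⁻¹, by ring, ?_⟩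
      field_simp
      rw [← sub_eq_zero]
      linear_combination hs'
  have hb0 : b ≠ 0 := by
    rintro rfl
    simp at hab2
  have ha0 : a ≠ 0 := by
    rintro rfl
    simp at hab2
  let g : Matrix (Fin 2) (Fin 2) F := !![a, -b; b, a]
  let B : Matrix (Fin 2) (Fin 2) F := !![0, -1; 1, 0]
  have hg2 : g * g = B := by
    ext i j
    fin_cases i <;> fin_cases j <;> simp [g, B, Matrix.mul_apply, Fin.sum_univ_two]
    · linear_combination hab1
    · linear_combination -hab2
    · linear_combination hab2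
    · linear_combination hab1
  have hB2 : B * B = -1 := by
    ext i j
    fin_cases i <;> fin_cases j <;> simp [B, Matrix.mul_apply, Fin.sum_univ_two]
  have hg4 : g * g * (g * g) = -1 := by rw [hg2, hB2]
  let c₀ : GL (Fin 2) F := ⟨g, -(g * g * g), by
    have h : g * (g * g * g) = g * g * (g * g) := by simp only [mul_assoc]
    rw [mul_neg, h, hg4, neg_neg], by
    have h : g * g * g * g = g * g * (g * g) := by simp only [mul_assoc]
    rw [neg_mul, h, hg4, neg_neg]⟩
  refine ⟨c₀, b⁻¹, a * b⁻¹, mul_ne_zero ha0 (inv_ne_zero hb0), ?_, ?_⟩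
  · change g * g = b⁻¹ • g - (a * b⁻¹) • 1
    rw [hg2]
    ext i j
    fin_cases i <;> fin_cases j <;> simp [g, B] <;> field_simp <;> ring
  · apply Units.ext
    rw [show (4 : ℕ) = 2 + 2 from rfl, pow_add, pow_two, Units.val_mul, Units.val_mul]
    change g * g * (g * g) = _
    rw [hg4]
    simp

/-- The case `q ≡ 3 mod 4`. -/
theorem case_three (hq : Fintype.card F % 4 = 3) (m : ℕ) (L : Type) [Fintype L] [DecidableEq L]
    (hL : Fintype.card L ≤ 1) (n : ℕ) (hn : n = 2 * m + Fintype.card L) (S : Sylow 2 (GL (Fin n) F)) :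
    LowerB (S : Subgroup (GL (Fin n) F)) ((n + 1) / 2) ∧ UpperB (S : Subgroup (GL (Fin n) F)) ((n + 1) / 2) := by
  classical
  have hq1 : 1 < Fintype.card F := Fintype.one_lt_card
  have hodd : Odd (Fintype.card F) := Nat.odd_iff.2 (by omega)
  have h2 : (2 : F) ≠ 0 := two_ne_zero_of_odd hodd
  obtain ⟨c₀, t, δ, hδ, hrel, hc4⟩ := exists_c₀ (F := F) hq
  -- no eigenvectors
  have hneg : ∀ a : F, a * a ≠ -1 := by
    intro a ha
    have hn : IsSquare (-1 : F) := ⟨a, ha.symm⟩
    rw [FiniteField.isSquare_neg_one_iff] at hn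
    exact hn hq
  have hY : ∀ (u : Fin 2 → F) (a : F), Weight.act (c₀ ^ 2) u = a • u → u = 0 := by
    intro u a h
    have h3 : Weight.act (c₀ ^ 4) u = (a * a) • u := by
      rw [show c₀ ^ 4 = c₀ ^ 2 * c₀ ^ 2 by rw [← pow_add], act_mul, h, act_smul, h, smul_smul]
    rw [hc4] at h3
    have h4 : Weight.act (-1 : GL (Fin 2) F) u = -u := by
      change ((-1 : GL (Fin 2) F) : Matrix (Fin 2) (Fin 2) F).mulVec u = -u
      rw [Units.val_neg, Units.val_one, Matrix.neg_mulVec, Matrix.one_mulVec]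
    rw [h4] at h3
    have h5 : (a * a + 1) • u = 0 := by
      rw [add_smul, one_smul, ← h3]
      simp
    rcases smul_eq_zero.1 h5 with h6 | h6
    · exact absurd (by linear_combination h6) (hneg a)
    · exact h6
  have hno : ∀ k : ℕ, 1 ≤ k → k ≤ 3 → ∀ (u : Fin 2 → F) (a : F), Weight.act (c₀ ^ k) u = a • u → u = 0 := by
    intro k hk1 hk3 u a h
    have hk : k = 1 ∨ k = 2 ∨ k = 3 := by omega
    rcases hk with rfl | rfl | rfl
    · refine hY u (a * a) ?_
      rw [pow_one] at h
      rw [pow_two, act_mul, h, act_smul, h, smul_smul]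
    · exact hY u a h
    · refine hY u (-(a * a)) ?_
      have h3 : Weight.act (c₀ ^ 3 * c₀ ^ 3) u = (a * a) • u := by
        rw [act_mul, h, act_smul, h, smul_smul]
      have h4 : c₀ ^ 3 * c₀ ^ 3 = -1 * c₀ ^ 2 := by
        rw [← hc4, ← pow_add, ← pow_add]
      rw [h4] at h3
      have h5 : Weight.act (-1 * c₀ ^ 2 : GL (Fin 2) F) u = - Weight.act (c₀ ^ 2) u := by
        simp [Weight.act, Matrix.neg_mulVec]
      rw [h5] at h3
      rw [neg_smul, ← h3, neg_neg]
  -- the Sylow subgroups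
  have hpow : IsPGroup 2 (Subgroup.zpowers c₀) := by
    rintro ⟨x, k, rfl⟩
    refine ⟨3, ?_⟩
    apply Subtype.ext
    change (c₀ ^ k) ^ (2 ^ 3) = 1
    have h8 : c₀ ^ 8 = 1 := by
      rw [show (8 : ℕ) = 4 + 4 from rfl, pow_add, hc4]
      simp
    rw [← zpow_natCast, ← _root_.zpow_mul, mul_comm, _root_.zpow_mul, zpow_natCast]
    change (c₀ ^ 8) ^ k = 1
    rw [h8, _root_.one_zpow]
  obtain ⟨A, hA⟩ := hpow.exists_le_sylow
  have hc₀A : c₀ ∈ A := hA (Subgroup.mem_zpowers _)
  have hnegA : (-1 : GL (Fin 2) F) ∈ A := by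
    rw [← hc4]
    exact pow_mem hc₀A 4
  let T : Sylow 2 (Perm (Fin m)) := default
  have hcardI : Fintype.card (Idx (Fin 2) L m) = n := by
    simp [hn]
  have hval : (Nat.card (GL (Fin 2) F)).factorization 2 * m + padicValNat 2 m.factorial + Fintype.card L =
      (Nat.card (GL (Idx (Fin 2) L m) F)).factorization 2 := by
    rw [val_GL_of hcardI, val_GL' 2, hn, show (2 : ℕ) = 2 * 1 by rfl, val_wP_even hodd hq1]
    have hL' : Fintype.card L = 0 ∨ Fintype.card L = 1 := by omega
    rcases hL' with h0 | h0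
    · rw [h0, add_zero, add_zero, val_wP_even hodd hq1]
      simp [mul_comm]
    · rw [h0, val_wP_odd hodd hq1, val_sub_of_three hq]
      simp [mul_comm]
  obtain ⟨R, hR⟩ := exists_sylow_wreath (L := L) h2 A T hval
  obtain ⟨e⟩ := exists_sylow_equiv (Fintype.equivFinOfCardEq hcardI) R S
  have hrr : (n + 1) / 2 = m + Fintype.card L := by
    rw [hn]
    omega
  constructor
  · have h3 := lowerB_sylow h2 A hnegA T hR
    rw [hrr]
    exact h3.of_mulEquiv e
  · have hsub : Subsingleton L := Fintype.card_le_one_iff_subsingleton.1 hL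
    have h3 := upperB_three (m := m) h2 (A : Subgroup (GL (Fin 2) F)) (T : Subgroup (Perm (Fin m))) hc₀A hδ hrel hno hsub
    rw [hcardI] at h3
    exact (h3.of_mulEquiv (MulEquiv.subgroupCongr hR.symm)).of_mulEquiv e

end Three

end Cfsg.Agent.Lib.NRank.GL
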